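import Cfsg.Agent.OddOrderCharacters.PF9.MackeyIrr
import Cfsg.Agent.Schreier.BNSch

/-!
# Linear characters of `B` moved by the reflection (helper371, S2452, row `²F₄(8)`)

`P = B ∪ B w B`, `mu : B →* ℂˣ` with `mu (w t w⁻¹) ≠ mu t` for some `t ∈ B ∩ w⁻¹ B w`:

* `isIrr_ind_two` : the induced character is irreducible;
* `eq_ind_of_over` : it is the only irreducible character of `P` over `mu`;
* `zero_of_over` : which vanishes outside the conjugates of `B`;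
* `zero_bn` : the same for the minimal parabolic subgroups of a group with a (B, N)-pair.
-/

set_option autoImplicit false

open Cfsg
open scoped ComplexConjugate

namespace Cfsg.Agent.H371.TC

universe u

section abs

variable {P : Type u} [Group P]

/-- two double cosets, and a reflection which moves `mu` -/
theorem isIrr_ind_two [Fintype P] (B : Subgroup P) (mu : B →* ℂˣ) (w : P)
    (hP : ∀ g : P, g ∈ B ∨ ∃ a ∈ B, ∃ b ∈ B, g = a * w * b)
    {t : P} (ht : t ∈ B) (ht' : w * t * w⁻¹ ∈ B) (hne : mu ⟨w * t * w⁻¹, ht'⟩ ≠ mu ⟨t, ht⟩) :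
    IsIrrCharacter P (indFun B (fun b : B => (mu b : ℂ))) := by
  apply OddOrderCharacters.PF9.MackeyIrr.isIrr_ind
  intro g hg
  rcases hP g with h | ⟨a, ha, b, hb, rfl⟩
  · exact h
  · exfalso
    apply hne
    have h1 := hg ((⟨b, hb⟩ : B)⁻¹ * ⟨t, ht⟩ * ⟨b, hb⟩) ((⟨a, ha⟩ : B) * ⟨w * t * w⁻¹, ht'⟩ * (⟨a, ha⟩ : B)⁻¹) (by
      show a * (w * t * w⁻¹) * a⁻¹ = a * w * b * (b⁻¹ * t * b) * (a * w * b)⁻¹
      group)
    rw [map_mul, map_mul, map_mul, map_mul, map_inv, map_inv, mul_comm (mu ⟨a, ha⟩), mul_inv_cancel_right,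
      mul_comm (mu ⟨b, hb⟩)⁻¹, inv_mul_cancel_right] at h1
    exact h1.symm

/-- the only irreducible character over `mu` -/
theorem eq_ind_of_over [Fintype P] (B : Subgroup P) [Fintype B] (mu : B →* ℂˣ) (w : P)
    (hP : ∀ g : P, g ∈ B ∨ ∃ a ∈ B, ∃ b ∈ B, g = a * w * b)
    {t : P} (ht : t ∈ B) (ht' : w * t * w⁻¹ ∈ B) (hne : mu ⟨w * t * w⁻¹, ht'⟩ ≠ mu ⟨t, ht⟩)
    (rho : IrrCharacter P)
    (h : classInner (fun b : B => (rho : P → ℂ) b) (fun b : B => (mu b : ℂ)) ≠ 0) :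
    (rho : P → ℂ) = indFun B (fun b : B => (mu b : ℂ)) := by
  have hirr := isIrr_ind_two B mu w hP ht ht' hne
  by_contra hcon
  apply h
  have h1 := Characters.Core.classInner_irr_ne rho.2 hirr hcon
  rw [OddOrderCharacters.IndRes.classInner_indFun_right B _ (Characters.Core.isIrr_isClassFunction rho.2)] at h1
  exact h1

theorem indFun_zero [Fintype P] (B : Subgroup P) (f : B → ℂ) {y : P} (hy : ∀ g : P, g⁻¹ * y * g ∉ B) :
    indFun B f y = 0 := by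
  classical
  rw [S0150.indFun_apply]
  rw [Finset.sum_eq_zero, mul_zero]
  intro g _
  unfold extendByZero
  rw [Function.extend_apply']
  · rfl
  · rintro ⟨a, ha⟩
    exact hy g (ha ▸ a.2)

/-- **the irreducible characters over `mu` vanish outside the conjugates of `B`** -/
theorem zero_of_over [Fintype P] (B : Subgroup P) [Fintype B] (mu : B →* ℂˣ) (w : P)
    (hP : ∀ g : P, g ∈ B ∨ ∃ a ∈ B, ∃ b ∈ B, g = a * w * b)
    {t : P} (ht : t ∈ B) (ht' : w * t * w⁻¹ ∈ B) (hne : mu ⟨w * t * w⁻¹, ht'⟩ ≠ mu ⟨t, ht⟩)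
    (rho : IrrCharacter P)
    (h : classInner (fun b : B => (rho : P → ℂ) b) (fun b : B => (mu b : ℂ)) ≠ 0)
    {y : P} (hy : ∀ g : P, g⁻¹ * y * g ∉ B) : (rho : P → ℂ) y = 0 := by
  rw [eq_ind_of_over B mu w hP ht ht' hne rho h]
  exact indFun_zero B _ hy

end abs

section grp

variable {G : Type u} [Group G]

/-- the form with two subgroups `B ≤ Pi` of a group -/
theorem zero_sub {B Pi : Subgroup G} (hBP : B ≤ Pi) [Finite Pi] [Fintype B] (mu : B →* ℂˣ) {w : G} (hw : w ∈ Pi)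
    (hP : ∀ g ∈ Pi, g ∈ B ∨ ∃ a ∈ B, ∃ b ∈ B, g = a * w * b)
    {t : G} (ht : t ∈ B) (ht' : w * t * w⁻¹ ∈ B) (hne : mu ⟨w * t * w⁻¹, ht'⟩ ≠ mu ⟨t, ht⟩)
    (rho : IrrCharacter Pi)
    (h : classInner (fun b : B => (rho : Pi → ℂ) ⟨b, hBP b.2⟩) (fun b : B => (mu b : ℂ)) ≠ 0)
    {y : Pi} (hy : ∀ g ∈ Pi, g⁻¹ * (y : G) * g ∉ B) : (rho : Pi → ℂ) y = 0 := by
  classical
  have := Fintype.ofFinite Pi
  have hf : Finite (B.subgroupOf Pi) := inferInstance
  have := Fintype.ofFinite (B.subgroupOf Pi)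
  set e := Subgroup.subgroupOfEquivOfLe hBP with he
  set mu' : (B.subgroupOf Pi) →* ℂˣ := mu.comp e.toMonoidHom with hmu
  have hmu' : ∀ (x : G) (hx : x ∈ Pi) (hx' : (⟨x, hx⟩ : Pi) ∈ B.subgroupOf Pi),
      mu' ⟨⟨x, hx⟩, hx'⟩ = mu ⟨x, Subgroup.mem_subgroupOf.1 hx'⟩ := fun x hx hx' => rfl
  refine zero_of_over (B.subgroupOf Pi) mu' ⟨w, hw⟩ ?_ (t := ⟨t, hBP ht⟩) (Subgroup.mem_subgroupOf.2 ht)
    (Subgroup.mem_subgroupOf.2 ht') hne rho ?_ ?_
  · rintro ⟨g, hg⟩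
    rcases hP g hg with h1 | ⟨a, ha, b, hb, rfl⟩
    · exact Or.inl (Subgroup.mem_subgroupOf.2 h1)
    · exact Or.inr ⟨⟨a, hBP ha⟩, Subgroup.mem_subgroupOf.2 ha, ⟨b, hBP hb⟩, Subgroup.mem_subgroupOf.2 hb, rfl⟩
  · intro h0
    apply h
    rw [← h0, Characters.Core.classInner_def, Characters.Core.classInner_def, Nat.card_congr e.toEquiv]
    congr 1
    exact (Fintype.sum_equiv e.toEquiv _ _ fun b => rfl).symm
  · rintro ⟨g, hg⟩ hmem
    exact hy g hg (Subgroup.mem_subgroupOf.1 hmem)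

/-- minimal parabolic subgroups of a group with a (B, N)-pair -/
theorem zero_bn [Finite G] (P : BNPair G) {s : G} (hs : s ∈ P.S) [Fintype P.B] (mu : P.B →* ℂˣ)
    {t : G} (ht : t ∈ P.B) (ht' : s * t * s⁻¹ ∈ P.B) (hne : mu ⟨s * t * s⁻¹, ht'⟩ ≠ mu ⟨t, ht⟩)
    (rho : IrrCharacter ↥(P.parabolic {s}))
    (h : classInner (fun b : P.B => (rho : P.parabolic {s} → ℂ) ⟨b, Schreier.BNSch.B_le_parabolic P _ b.2⟩)
      (fun b : P.B => (mu b : ℂ)) ≠ 0)
    {y : P.parabolic {s}} (hy : ∀ g ∈ P.parabolic {s}, g⁻¹ * (y : G) * g ∉ P.B) :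
    (rho : P.parabolic {s} → ℂ) y = 0 :=
  zero_sub (Schreier.BNSch.B_le_parabolic P {s}) mu (Schreier.BNSch.mem_parabolic_self P s)
    (fun _ hg => Schreier.BNSch.mem_parabolic_singleton P hs hg) ht ht' hne rho h hy

/-- elements of order divisible by a prime not dividing `|B|` -/
theorem not_mem_of_order {B : Subgroup G} [Finite B] {n r : ℕ} (hr : ¬ r ∣ Nat.card B) {y : G} (hy : orderOf y = n)
    (hn : r ∣ n) (g : G) : g⁻¹ * y * g ∉ B := by
  intro h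
  apply hr
  have h1 : orderOf (g⁻¹ * y * g) = orderOf y := by
    have := (MulAut.conj g⁻¹).orderOf_eq y
    simpa using this
  have h2 : orderOf (⟨g⁻¹ * y * g, h⟩ : B) = n := by rw [Subgroup.orderOf_mk, h1, hy]
  exact hn.trans (h2 ▸ orderOf_dvd_natCard _)

end grp

end Cfsg.Agent.H371.TC
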