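import Cfsg.Agent.H371.TC.FTwo
import Cfsg.Agent.H84.GaussTwF4C

/-!
# `²F₄(q)`: the linear characters of `B` which are not trivial on the torus of `⟨X_0, X_8⟩` (helper371, S2452)

Frame `S : Full σ G`, `B = J 1 8 · T`, `mu : B →* ℂˣ` trivial on `J 1 8`, `mu b ≠ 1` for some `b ∈ B ∩ LL S`:
`mu` is moved by the reflection `n2`.
-/

set_option autoImplicit false
set_option linter.unusedSectionVars false

namespace Cfsg.Agent.H371.TC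

open Cfsg
open Cfsg.Agent.SplitTwo Cfsg.Agent.SplitTwo.ZS Cfsg.Agent.TitsThree.RankTwoZ
open Cfsg.Agent.KFacts.TwF4 Cfsg.Agent.KFacts.TwF4.Arc Cfsg.Agent.KFacts.TwF4.Inv
open Cfsg.Agent.H84.TwF4Two Cfsg.Agent.H84.GaussTwF4

universe u

variable {F : Type*} [Field F] {σ : F →+* F} {G : Type u} [Group G] {S : Full σ G}

/-- the reflection in `X_{±4}` centralises the Levi factor -/
theorem n4_comm {x : G} (hx : x ∈ LL S) :
    x * (S.rot ^ (-2 : ℤ) * S.n2 * (S.rot ^ (-2 : ℤ))⁻¹) = (S.rot ^ (-2 : ℤ) * S.n2 * (S.rot ^ (-2 : ℤ))⁻¹) * x := by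
  refine comm_04 hx ?_
  have h1 : LL S ≤ (S.XZ 4 ⊔ S.XZ (-4)).comap (MulAut.conj (S.rot ^ (-2 : ℤ))).toMonoidHom := by
    refine sup_le ?_ ?_
    · intro y hy
      have h2 := S.rotk_X' (-2) 8 hy
      rw [show (8 : ℤ) + 2 * -2 = 4 by norm_num] at h2
      exact (le_sup_left : S.XZ 4 ≤ S.XZ 4 ⊔ S.XZ (-4)) h2
    · intro y hy
      have h2 := S.rotk_X' (-2) 0 hy
      rw [show (0 : ℤ) + 2 * -2 = -4 by norm_num] at h2
      exact (le_sup_right : S.XZ (-4) ≤ S.XZ 4 ⊔ S.XZ (-4)) h2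
  exact h1 n2_mem_LL

/-- `h 1 e` is not in the Levi factor -/
theorem h_not_mem_LL {e : Fˣ} (h : S.h 1 e ∈ LL S) : e = 1 := by
  have h1 := n4_comm h
  have h2 := refl0_h (S := S) n4_refl e
  rw [← h1, mul_inv_cancel_right] at h2
  have h3 := (S.h_inj _ _ _ _ h2).2
  refine SylU.unit_sq S ?_
  nth_rewrite 1 [h3]
  exact inv_mul_cancel e

/-- the torus of the Levi factor -/
theorem T_inf_LL [Finite F] {t : G} (ht : t ∈ S.T) (h : t ∈ LL S) : ∃ d : Fˣ, t = S.h (Units.map (σ : F →* F) d) d := by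
  obtain ⟨c, d, rfl⟩ := S.mem_T.1 ht
  have hinj : Function.Injective (Units.map (σ : F →* F)) := by
    intro a b h
    exact Units.ext (σ.injective (congrArg Units.val h))
  obtain ⟨e, rfl⟩ := Finite.surjective_of_injective hinj c
  have h1 : S.h (Units.map (σ : F →* F) e) d = S.h (Units.map (σ : F →* F) e) e * S.h 1 (e⁻¹ * d) := by
    rw [S.h_mul, mul_one, mul_inv_cancel_left]
  have h2 : S.h 1 (e⁻¹ * d) ∈ LL S := by
    have h3 := mul_mem (inv_mem (h_mem_LL (S := S) e)) h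
    rw [h1, inv_mul_cancel_left] at h3
    exact h3
  have h3 := h_not_mem_LL h2
  refine ⟨e, ?_⟩
  rw [h1, h3, S.h_one, mul_one]

/-- the Borel subgroup of the Levi factor -/
theorem borel_LL [Finite F] (hF : ∃ c : Fˣ, c ≠ 1) {u t : G} (hu : u ∈ J S.XZ 1 8) (ht : t ∈ S.T)
    (h : u * t ∈ LL S) : u ∈ S.XZ 8 ∧ ∃ d : Fˣ, t = S.h (Units.map (σ : F →* F) d) d := by
  obtain ⟨e, he⟩ := hF
  obtain ⟨v, hv, x, hx, rfl⟩ := S.zsys8.split_rr (a := 1) (b := 8) (by norm_num) (by norm_num) hu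
  rw [show (8 : ℤ) - 1 = 7 by norm_num] at hv
  have hv1 : v = 1 := by
    refine fix17 he hv ?_
    have c1 := h_comm_LL (S := S) e h
    have c2 := h_comm_LL (S := S) e (X8_le hx)
    have c3 := T_comm (S := S) (s := S.h 1 e) (t := t) (S.mem_T.2 ⟨_, _, rfl⟩) ht
    have e1 : v = (v * x * t) * t⁻¹ * x⁻¹ := by group
    have c3' : S.h 1 e * t⁻¹ = t⁻¹ * S.h 1 e := by
      calc S.h 1 e * t⁻¹ = t⁻¹ * (t * S.h 1 e) * t⁻¹ := by group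
        _ = t⁻¹ * (S.h 1 e * t) * t⁻¹ := by rw [c3]
        _ = t⁻¹ * S.h 1 e := by group
    have c2' : S.h 1 e * x⁻¹ = x⁻¹ * S.h 1 e := by
      calc S.h 1 e * x⁻¹ = x⁻¹ * (x * S.h 1 e) * x⁻¹ := by group
        _ = x⁻¹ * (S.h 1 e * x) * x⁻¹ := by rw [c2]
        _ = x⁻¹ * S.h 1 e := by group
    calc S.h 1 e * v = S.h 1 e * (v * x * t) * t⁻¹ * x⁻¹ := by group
      _ = (v * x * t) * (S.h 1 e * t⁻¹) * x⁻¹ := by rw [c1]; group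
      _ = (v * x * t) * t⁻¹ * (S.h 1 e * x⁻¹) := by rw [c3']; group
      _ = (v * x * t) * t⁻¹ * (x⁻¹ * S.h 1 e) := by rw [c2']
      _ = v * S.h 1 e := by group
  subst hv1
  rw [one_mul] at h ⊢
  refine ⟨hx, T_inf_LL ht ?_⟩
  have h1 := mul_mem (inv_mem (X8_le hx)) h
  rwa [inv_mul_cancel_left] at h1

/-- `n2` inverts the torus of the Levi factor -/
theorem n2_inv_h (d : Fˣ) : S.n2 * S.h (Units.map (σ : F →* F) d) d * S.n2⁻¹ =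
    (S.h (Units.map (σ : F →* F) d) d)⁻¹ := by
  rw [S.n2_h, S.h_inv, map_map σ S.sq]
  congr 1
  rw [pow_two, div_mul_cancel_left]

/-- **`mu` is moved by `n2`** -/
theorem moved [Finite F] (ho : Odd (Nat.card Fˣ)) (hF : ∃ c : Fˣ, c ≠ 1) {B : Subgroup G} (hU : J S.XZ 1 8 ≤ B)
    (hT : S.T ≤ B) (hB : ∀ b ∈ B, ∃ u ∈ J S.XZ 1 8, ∃ t ∈ S.T, b = u * t) (mu : B →* ℂˣ)
    (h1 : ∀ u (hu : u ∈ J S.XZ 1 8), mu ⟨u, hU hu⟩ = 1) (h2 : ∃ b : B, (b : G) ∈ LL S ∧ mu b ≠ 1) :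
    ∃ (t : G) (ht : t ∈ B) (ht' : S.n2 * t * S.n2⁻¹ ∈ B), mu ⟨S.n2 * t * S.n2⁻¹, ht'⟩ ≠ mu ⟨t, ht⟩ := by
  obtain ⟨⟨b, hb⟩, hbL, hbm⟩ := h2
  obtain ⟨u, hu, t, ht, rfl⟩ := hB b hb
  obtain ⟨-, d, rfl⟩ := borel_LL hF hu ht hbL
  set τ := S.h (Units.map (σ : F →* F) d) d with hτ
  have hne : mu ⟨τ, hT ht⟩ ≠ 1 := by
    intro h3
    apply hbm
    have e1 : (⟨u * τ, hb⟩ : B) = ⟨u, hU hu⟩ * ⟨τ, hT ht⟩ := rfl
    rw [e1, map_mul, h1 u hu, h3, one_mul]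
  have e2 : S.n2 * τ * S.n2⁻¹ = τ⁻¹ := n2_inv_h d
  have hmem : S.n2 * τ * S.n2⁻¹ ∈ B := by rw [e2]; exact inv_mem (hT ht)
  refine ⟨τ, hT ht, hmem, fun h3 => hne ?_⟩
  have e3 : (⟨S.n2 * τ * S.n2⁻¹, hmem⟩ : B) = (⟨τ, hT ht⟩ : B)⁻¹ := Subtype.ext e2
  rw [e3, map_inv, inv_eq_iff_mul_eq_one] at h3
  obtain ⟨k, hk⟩ := ho
  have h4 : (⟨τ, hT ht⟩ : B) ^ (2 * k + 1) = 1 := by
    apply Subtype.ext
    show τ ^ (2 * k + 1) = 1
    have h5 : ∀ x : Fˣ, x ^ (2 * k + 1) = 1 := fun x => by rw [← hk]; exact pow_card_eq_one'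
    rw [hτ, h_pow, h5, h5, S.h_one]
  have h5 := congrArg mu h4
  rw [map_pow, map_one, pow_succ, pow_mul, pow_two, h3, one_pow, one_mul] at h5
  exact h5

/-- **(F2)**: `Pi = B ∪ B n2 B`, `B = J 1 8 · T`, `mu` trivial on `J 1 8` and not trivial on `B ∩ LL S`: the irreducible
characters of `Pi` over `mu` vanish at the elements without conjugates in `B` -/
theorem zero_frame [Finite F] (ho : Odd (Nat.card Fˣ)) (hF : ∃ c : Fˣ, c ≠ 1) {B Pi : Subgroup G} (hBP : B ≤ Pi)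
    [Finite Pi] [Fintype B] (hn : S.n2 ∈ Pi) (hP : ∀ g ∈ Pi, g ∈ B ∨ ∃ a ∈ B, ∃ b ∈ B, g = a * S.n2 * b)
    (hU : J S.XZ 1 8 ≤ B)
    (hT : S.T ≤ B) (hB : ∀ b ∈ B, ∃ u ∈ J S.XZ 1 8, ∃ t ∈ S.T, b = u * t) (mu : B →* ℂˣ)
    (h1 : ∀ u (hu : u ∈ J S.XZ 1 8), mu ⟨u, hU hu⟩ = 1) (h2 : ∃ b : B, (b : G) ∈ LL S ∧ mu b ≠ 1)
    (rho : IrrCharacter Pi)
    (h : classInner (fun b : B => (rho : Pi → ℂ) ⟨b, hBP b.2⟩) (fun b : B => (mu b : ℂ)) ≠ 0)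
    {y : Pi} (hy : ∀ g ∈ Pi, g⁻¹ * (y : G) * g ∉ B) : (rho : Pi → ℂ) y = 0 := by
  obtain ⟨t, ht, ht', hne⟩ := moved ho hF hU hT hB mu h1 h2
  exact zero_sub hBP mu hn hP ht ht' hne rho h hy

end Cfsg.Agent.H371.TC
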